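import Mathlib

/-!
# Fixed points of an involutory automorphism on a group generated by commuting transpositions (helper995)

`T` a normal set of 3-transpositions of `G`, `E0` a subgroup generated by pairwise commuting members of `T`, `t` an
automorphism of `G` with `t² = 1`, `t T = T`.  Then `t` fixes elementwise an abelian 2-subgroup `C` with `|E0| ≤ |C|²`.
-/

set_option autoImplicit false

namespace Cfsg.Agent.H995.FiStd

open Subgroup
open scoped Pointwise

variable {G : Type*} [Group G] [Finite G]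

/-- an involutory automorphism normalises a Sylow 2-subgroup -/
theorem exists_inv_sylow {t : MulAut G} (htt : t * t = 1) : ∃ P : Sylow 2 G, ∀ x ∈ P, t x ∈ P := by
  have h2 : Fact (Nat.Prime 2) := ⟨Nat.prime_two⟩
  have hz : IsPGroup 2 (zpowers t) := by
    rintro ⟨x, k, rfl⟩
    refine ⟨1, Subtype.ext ?_⟩
    show (t ^ k) ^ 2 ^ 1 = 1
    rw [pow_one, ← zpow_natCast, ← zpow_mul, mul_comm, zpow_mul, zpow_natCast, pow_two, htt, one_zpow]
  have hS : ¬ 2 ∣ Nat.card (Sylow 2 G) := by
    have := card_sylow_modEq_one 2 G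
    intro hd
    rw [Nat.ModEq, Nat.mod_eq_zero_of_dvd hd] at this
    norm_num at this
  have : Finite (Sylow 2 G) := inferInstance
  obtain ⟨P, hP⟩ := hz.nonempty_fixed_point_of_prime_not_dvd_card (Sylow 2 G) hS
  refine ⟨P, fun x hx => ?_⟩
  have h1 : (⟨t, mem_zpowers t⟩ : zpowers t) • P = P := hP _
  have h3 : (t • P : Sylow 2 G) = P := h1
  have h4 : t • x ∈ t • (P : Subgroup G) := Subgroup.smul_mem_pointwise_smul x t _ hx
  rw [← Sylow.pointwise_smul_def, h3] at h4
  exact h4

/-- the fixed points of an involutory automorphism on an abelian group -/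
theorem card_le_sq {E : Subgroup G} (hE : ∀ x ∈ E, ∀ y ∈ E, x * y = y * x) {t : MulAut G} (htt : t * t = 1)
    (hx : ∀ x ∈ E, x * x = 1) (ht : ∀ x ∈ E, t x ∈ E) :
    ∃ C : Subgroup G, C ≤ E ∧ (∀ x ∈ C, t x = x) ∧ Nat.card E ≤ Nat.card C ^ 2 := by
  have htt' : ∀ x, t (t x) = x := fun x => by
    have := congrArg (fun s : MulAut G => s x) htt
    exact this
  let C : Subgroup G :=
    { carrier := {x | x ∈ E ∧ t x = x}
      one_mem' := ⟨one_mem _, map_one t⟩
      mul_mem' := fun {a b} ha hb => ⟨mul_mem ha.1 hb.1, by rw [map_mul, ha.2, hb.2]⟩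
      inv_mem' := fun {a} ha => ⟨inv_mem ha.1, by rw [map_inv, ha.2]⟩ }
  refine ⟨C, fun x hx => hx.1, fun x hx => hx.2, ?_⟩
  let f : E →* G :=
    { toFun := fun x => (x : G) * t x
      map_one' := by simp
      map_mul' := fun x y => by
        have h1 := hE y y.2 (t x) (ht x x.2)
        show (x : G) * y * t (x * y) = (x : G) * t x * (y * t y)
        rw [map_mul]
        calc (x : G) * y * (t x * t y) = (x : G) * ((y : G) * t x) * t y := by group
          _ = (x : G) * (t x * y) * t y := by rw [h1]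
          _ = (x : G) * t x * (y * t y) := by group }
  have hr : f.range ≤ C := by
    rintro _ ⟨x, rfl⟩
    refine ⟨mul_mem x.2 (ht x x.2), ?_⟩
    show t ((x : G) * t x) = (x : G) * t x
    rw [map_mul, htt', hE _ (ht x x.2) _ x.2]
  have hk : f.ker.map E.subtype ≤ C := by
    rintro _ ⟨x, hxk, rfl⟩
    refine ⟨x.2, ?_⟩
    have h1 : (x : G) * t x = 1 := hxk
    have h2 := hx x x.2
    show t (x : G) = x
    exact mul_left_cancel (h1.trans h2.symm)
  have h1 : Nat.card E = Nat.card f.ker * Nat.card f.range := by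
    rw [← Subgroup.index_ker, Subgroup.card_mul_index]
  have h2 : Nat.card f.ker ≤ Nat.card C := by
    rw [← Subgroup.card_map_of_injective (K := f.ker) E.subtype_injective]
    exact Subgroup.card_le_of_le hk
  rw [h1, pow_two]
  exact Nat.mul_le_mul h2 (Subgroup.card_le_of_le hr)

theorem comm_of_two {P : Subgroup G} (hP : IsPGroup 2 P) {a b : G} (ha : a ∈ P) (hb : b ∈ P) (haa : a * a = 1)
    (hbb : b * b = 1) (h : a * b = b * a ∨ (a * b) ^ 3 = 1) : a * b = b * a := by
  rcases h with h | h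
  · exact h
  · obtain ⟨k, hk⟩ := hP ⟨a * b, mul_mem ha hb⟩
    have h1 : (a * b) ^ 2 ^ k = 1 := congrArg Subtype.val hk
    have h2 : orderOf (a * b) ∣ Nat.gcd 3 (2 ^ k) :=
      Nat.dvd_gcd (orderOf_dvd_of_pow_eq_one h) (orderOf_dvd_of_pow_eq_one h1)
    have h3 : Nat.gcd 3 (2 ^ k) = 1 := Nat.Coprime.pow_right k (by norm_num)
    rw [h3] at h2
    have h4 : a * b = 1 := orderOf_eq_one_iff.1 (Nat.dvd_one.1 h2)
    have h5 : b = a := by
      calc b = a * a * b := by rw [haa, one_mul]
        _ = a * (a * b) := by group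
        _ = a := by rw [h4, mul_one]
    rw [h5]

/-- **Main lemma.** -/
theorem exists_comm {T : Set G} (hsq : ∀ a ∈ T, a * a = 1) (h3 : ∀ a ∈ T, ∀ b ∈ T, a * b = b * a ∨ (a * b) ^ 3 = 1)
    (hconj : ∀ g : G, ∀ a ∈ T, g * a * g⁻¹ ∈ T) {t : MulAut G} (ht : ∀ a ∈ T, t a ∈ T) (htt : t * t = 1)
    {S : Set G} (hS : S ⊆ T) (hc : ∀ a ∈ S, ∀ b ∈ S, a * b = b * a) :
    ∃ C : Subgroup G, (∀ x ∈ C, t x = x) ∧ (∀ x ∈ C, ∀ y ∈ C, x * y = y * x) ∧ IsPGroup 2 C ∧
      Nat.card (closure S) ≤ Nat.card C ^ 2 := by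
  have h2 : Fact (Nat.Prime 2) := ⟨Nat.prime_two⟩
  obtain ⟨P, hP⟩ := exists_inv_sylow htt
  -- the closure of commuting involutions
  have key : ∀ S : Set G, S ⊆ T → (∀ a ∈ S, ∀ b ∈ S, a * b = b * a) →
      (∀ x ∈ closure S, ∀ y ∈ closure S, x * y = y * x) ∧ (∀ x ∈ closure S, x * x = 1) ∧ IsPGroup 2 (closure S) := by
    intro S hS hc
    have h1 : ∀ x ∈ closure S, ∀ y ∈ closure S, x * y = y * x := by
      have h := (Subgroup.isMulCommutative_closure (k := S) (fun a ha b hb => hc a ha b hb))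
      intro x hx y hy
      exact congrArg Subtype.val (h.is_comm.comm ⟨x, hx⟩ ⟨y, hy⟩)
    have h2 : ∀ x ∈ closure S, x * x = 1 := by
      intro x hx
      induction hx using Subgroup.closure_induction with
      | mem x hx => exact hsq x (hS hx)
      | one => exact one_mul 1
      | mul x y hx hy ihx ihy =>
        calc x * y * (x * y) = x * (y * x) * y := by group
          _ = x * (x * y) * y := by rw [h1 y hy x hx]
          _ = (x * x) * (y * y) := by group
          _ = 1 := by rw [ihx, ihy, one_mul]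
      | inv x hx ih =>
        rw [← mul_inv_rev, ih, inv_one]
    refine ⟨h1, h2, ?_⟩
    rintro ⟨x, hx⟩
    refine ⟨1, Subtype.ext ?_⟩
    show x ^ 2 ^ 1 = 1
    rw [pow_one, pow_two]
    exact h2 x hx
  -- the transpositions of `P`
  set S' : Set G := {a | a ∈ T ∧ a ∈ P} with hS'
  have hc' : ∀ a ∈ S', ∀ b ∈ S', a * b = b * a := fun a ha b hb =>
    comm_of_two P.2 ha.2 hb.2 (hsq a ha.1) (hsq b hb.1) (h3 a ha.1 b hb.1)
  obtain ⟨k1, k2, k3⟩ := key S' (fun a ha => ha.1) hc'
  have kt : ∀ x ∈ closure S', t x ∈ closure S' := by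
    intro x hx
    induction hx using Subgroup.closure_induction with
    | mem x hx => exact subset_closure ⟨ht x hx.1, hP x hx.2⟩
    | one => rw [map_one]; exact one_mem _
    | mul x y hx hy ihx ihy => rw [map_mul]; exact mul_mem ihx ihy
    | inv x hx ih => rw [map_inv]; exact inv_mem ih
  obtain ⟨C, hCE, hCt, hC⟩ := card_le_sq k1 htt k2 kt
  refine ⟨C, hCt, fun x hx y hy => k1 x (hCE hx) y (hCE hy), k3.to_le hCE, le_trans ?_ hC⟩
  -- `closure S` is conjugate into `P`
  obtain ⟨-, -, k6⟩ := key S hS hc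
  obtain ⟨Q, hQ⟩ := k6.exists_le_sylow
  obtain ⟨g, hg⟩ := MulAction.exists_smul_eq G Q P
  have h4 : (closure S).map (MulAut.conj g).toMonoidHom ≤ closure S' := by
    rw [MonoidHom.map_closure, closure_le]
    rintro _ ⟨a, ha, rfl⟩
    refine subset_closure ⟨hconj g a (hS ha), ?_⟩
    have h5 : a ∈ Q := hQ (subset_closure ha)
    rw [← hg]
    exact ⟨a, h5, rfl⟩
  calc Nat.card (closure S) = Nat.card ((closure S).map (MulAut.conj g).toMonoidHom) :=
        (Subgroup.card_map_of_injective (MulAut.conj g).injective).symm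
    _ ≤ _ := Subgroup.card_le_of_le h4

end Cfsg.Agent.H995.FiStd
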