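import Cfsg.Agent.H995.FiElem
import Cfsg.Agent.Fischer.Fi22Order
import Cfsg.Agent.R08.AutT
import Cfsg.Agent.S0813
import Cfsg.Agent.GH.Cov.SylowThree
import Cfsg.Agent.ClassicalGeometry.PSL2Basic
import Cfsg.Agent.H26.SolvPPrime

/-!
# `Fi₂₂`: no `L₃(3)` in the centralizer of an involutory automorphism (helper995; S3139, S3140)

* `exists_comm_fi22` : an involutory automorphism of `Fi₂₂` fixes elementwise an abelian 2-subgroup `C` with `2⁹ ≤ |C|²`;
* `fi22` : `t` an automorphism of `X ≅ Fi₂₂` with `t² = 1`, `L` a perfect normal subgroup of `C_X(t)` with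
  `L / Z(L) ≅ L₃(3)`, no involution of `C_X(t)` centralizes `L`: impossible.
-/

set_option autoImplicit false
set_option maxRecDepth 100000

namespace Cfsg.Agent.H995.FiStd

open Subgroup Cfsg
open scoped commutatorElement

universe u v

/-! ### Nine commuting transpositions -/

section model

open Cfsg.Spor Cfsg.Spor.Fi22 Cfsg.Agent.Lib.PermNet Cfsg.Agent.Lib.PermNetOrbit Cfsg.Agent.Fischer.Fi22PtsRep
open Cfsg.Agent.Fischer.Fi22Order (nws nws_ok φ_injective)
open Cfsg.Agent.R08.AutT (T)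

/-- the word of a conjugate of a generator -/
def cjw (c : List Gen × Gen) : List Gen := c.1 ++ (c.2 :: c.1.reverse)

/-- nine commuting transpositions -/
def nine : List (List Gen × Gen) := [([], .a), ([], .c), ([], .e), ([], .g), ([], .h),
  ([.d, .h, .e, .d], .c), ([.b, .c, .d, .h, .e, .d, .c, .b], .a), ([.f, .e, .d, .h, .g, .f, .e, .d], .c),
  ([.f, .e, .b, .c, .d, .h, .g, .f, .e, .d, .c, .b], .a)]

theorem wd_reverse (w : List Gen) : wd w.reverse = (wd w)⁻¹ := by
  induction w with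
  | nil => rw [List.reverse_nil, wd_nil, inv_one]
  | cons x w ih => rw [List.reverse_cons, wd_append, ih, wd_cons, wd_cons, wd_nil, mul_one, mul_inv_rev, gen_inv]

theorem wd_cjw (c : List Gen × Gen) : wd (cjw c) = wd c.1 * gen c.2 * (wd c.1)⁻¹ := by
  unfold cjw
  rw [wd_append, wd_cons, wd_reverse]
  group

theorem wd_mem (c : List Gen × Gen) : wd (cjw c) ∈ T := by
  rw [wd_cjw]
  exact Cfsg.Agent.R08.AutT.tFacts.conj _ _ (Cfsg.Agent.R01.Fi22Facts.gen_mem _)

theorem chk_comm : (nine.all fun c => nine.all fun c' =>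
    checkEq 12 (nw (cjw c ++ cjw c')) (nw (cjw c' ++ cjw c))) = true := by decide +kernel

theorem comm_nine {c c' : List Gen × Gen} (hc : c ∈ nine) (hc' : c' ∈ nine) :
    wd (cjw c) * wd (cjw c') = wd (cjw c') * wd (cjw c) := by
  have h := List.all_eq_true.1 (List.all_eq_true.1 chk_comm c hc) c' hc'
  rw [← wd_append, ← wd_append]
  apply φ_injective
  rw [φ_wd, φ_wd]
  exact wperm_eq_of_checkEq (nw_ok _) (nw_ok _) h

/-- the set of the nine transpositions -/
def S9 : Set Spor.Fi22 := {g | ∃ c ∈ nine, g = wd (cjw c)}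

theorem card_S9 : 512 ≤ Nat.card (closure S9) := by
  have hfin : Finite Spor.Fi22 := Cfsg.Agent.R08.AutT.finite
  have h := stabL_step_of_check (φ.comp (closure S9).subtype) (k := 12) [] 58 512 1 (nws_ok (nine.map cjw))
    (by
      intro w hw
      obtain ⟨v, hv, rfl⟩ := List.mem_map.1 hw
      obtain ⟨c, hc, rfl⟩ := List.mem_map.1 hv
      exact ⟨⟨wd (cjw c), subset_closure ⟨c, hc, rfl⟩⟩, φ_wd _⟩)
    (by decide +kernel) (by decide +kernel) (by decide +kernel)
  have h1 : 0 < Nat.card (stabL (φ.comp (closure S9).subtype) [58]) := Nat.card_pos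
  have h2 : Nat.card (stabL (φ.comp (closure S9).subtype) []) ≤ Nat.card (closure S9) :=
    Nat.card_le_card_of_injective _ Subtype.val_injective
  calc 512 = 512 * 1 := rfl
    _ ≤ 512 * Nat.card (stabL (φ.comp (closure S9).subtype) [58]) := Nat.mul_le_mul_left _ h1
    _ ≤ _ := h.trans h2

theorem exists_comm_model {t : MulAut Spor.Fi22} (htt : t * t = 1) :
    ∃ C : Subgroup Spor.Fi22, (∀ x ∈ C, t x = x) ∧ (∀ x ∈ C, ∀ y ∈ C, x * y = y * x) ∧ IsPGroup 2 C ∧
      2 ^ 9 ≤ Nat.card C ^ 2 := by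
  have hfin : Finite Spor.Fi22 := Cfsg.Agent.R08.AutT.finite
  have tF := Cfsg.Agent.R08.AutT.tFacts
  obtain ⟨⟨hord, h3⟩, -, -⟩ := Cfsg.Agent.R01.Fi22Facts.isThreeTranspositionClass_T
  obtain ⟨C, h1, h2, h4, h5⟩ := exists_comm (T := T) (fun a ha => tF.sq a ha)
    (fun a ha b hb => by
      rcases h3 a ha b hb with h | h
      · left
        rw [pow_two] at h
        have h6 := eq_inv_of_mul_eq_one_left h
        rw [mul_inv_rev, inv_eq_of_mul_eq_one_left (tF.sq a ha), inv_eq_of_mul_eq_one_left (tF.sq b hb)] at h6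
        exact h6
      · exact Or.inr h) (fun g a ha => tF.conj g a ha) (t := t)
    (fun a ha => Cfsg.Agent.R08.AutT.aut_mem t ha) htt (S := S9)
    (by rintro _ ⟨c, -, rfl⟩; exact wd_mem c)
    (by rintro _ ⟨c, hc, rfl⟩ _ ⟨c', hc', rfl⟩; exact comm_nine hc hc')
  exact ⟨C, h1, h2, h4, card_S9.trans h5⟩

end model

/-- **Fixed points in `Fi₂₂`.** -/
theorem exists_comm_fi22 {X : Type u} [Group X] (h : Spor.IsoFi22 X) {t : MulAut X} (htt : t * t = 1) :
    ∃ C : Subgroup X, (∀ x ∈ C, t x = x) ∧ (∀ x ∈ C, ∀ y ∈ C, x * y = y * x) ∧ IsPGroup 2 C ∧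
      2 ^ 9 ≤ Nat.card C ^ 2 := by
  obtain ⟨e⟩ := h
  obtain ⟨C, h1, h2, h3, h4⟩ := exists_comm_model (t := MulAut.congr e t) (by rw [← map_mul, htt, map_one])
  refine ⟨C.map e.symm.toMonoidHom, ?_, ?_, h3.map _, ?_⟩
  · rintro _ ⟨x, hx, rfl⟩
    have h5 : e (t (e.symm x)) = x := h1 x hx
    show t (e.symm x) = e.symm x
    exact e.injective (by rw [h5, e.apply_symm_apply])
  · rintro _ ⟨x, hx, rfl⟩ _ ⟨y, hy, rfl⟩
    rw [← map_mul, ← map_mul, h2 x hx y hy]
  · rwa [Subgroup.card_map_of_injective e.symm.injective]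

/-! ### Automorphisms of `L` -/

/-- an automorphism trivial on `N / Z(N)`, `N` perfect, is trivial -/
theorem card_mulAut_dvd {N : Type u} [Group N] (hN : commutator N = ⊤) :
    Nat.card (MulAut N) ∣ Nat.card (MulAut (N ⧸ center N)) := by
  let bar : MulAut N →* MulAut (N ⧸ center N) :=
    { toFun := fun τ => QuotientGroup.congr (center N) (center N) τ (Subgroup.characteristic_iff_map_eq.1 inferInstance τ)
      map_one' := by
        ext x
        obtain ⟨x, rfl⟩ := QuotientGroup.mk'_surjective _ x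
        rfl
      map_mul' := fun τ σ => by
        ext x
        obtain ⟨x, rfl⟩ := QuotientGroup.mk'_surjective _ x
        rfl }
  have hinj : Function.Injective bar := by
    rw [injective_iff_map_eq_one]
    intro τ h
    have h1 : ∀ x : N, x⁻¹ * τ x ∈ center N := by
      intro x
      have h2 := DFunLike.congr_fun h (QuotientGroup.mk' (center N) x)
      exact QuotientGroup.eq.1 h2.symm
    have h2 : (⊤ : Subgroup N) ≤ MonoidHom.eqLocus τ.toMonoidHom (MonoidHom.id N) := by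
      rw [← hN, _root_.commutator_def, commutator_le]
      intro x _ y _
      show τ ⁅x, y⁆ = ⁅x, y⁆
      obtain ⟨c, hc, hx⟩ : ∃ c ∈ center N, τ x = x * c := ⟨_, h1 x, by group⟩
      obtain ⟨d, hd, hy⟩ : ∃ c ∈ center N, τ y = y * c := ⟨_, h1 y, by group⟩
      rw [mem_center_iff] at hc hd
      rw [commutatorElement_def, map_mul, map_mul, map_mul, map_inv, map_inv, hx, hy, mul_inv_rev, mul_inv_rev]
      calc x * c * (y * d) * (c⁻¹ * x⁻¹) * (d⁻¹ * y⁻¹) = x * (c * (y * d)) * (c⁻¹ * x⁻¹) * (d⁻¹ * y⁻¹) := by group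
        _ = x * ((y * d) * c) * (c⁻¹ * x⁻¹) * (d⁻¹ * y⁻¹) := by rw [hc (y * d)]
        _ = x * y * (d * x⁻¹) * d⁻¹ * y⁻¹ := by group
        _ = x * y * (x⁻¹ * d) * d⁻¹ * y⁻¹ := by rw [← hd x⁻¹]
        _ = x * y * x⁻¹ * y⁻¹ := by group
    ext x
    exact h2 (mem_top x)
  exact Subgroup.card_dvd_of_injective bar hinj

/-! ### The group theoretic part -/

theorem no_comm {X : Type u} [Group X] [Finite X] {t : MulAut X} {L : Subgroup X} (fix : ∀ l ∈ L, t l = l)
    (norm : ∀ x : X, t x = x → ∀ l ∈ L, x * l * x⁻¹ ∈ L)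
    (inv : ∀ x : X, t x = x → x * x = 1 → (∀ l ∈ L, x * l = l * x) → x = 1)
    (hL : commutator ↥L = ⊤) {B : Type v} [Group B] (f : ↥L →* B) (hf : Function.Surjective f)
    (hk : f.ker = center ↥L) (hB : ¬ 2 ^ 6 ∣ Nat.card (MulAut B))
    (h8 : ∀ P : Sylow 2 B, ¬ IsMulCommutative (P : Subgroup B))
    {C : Subgroup X} (hC : ∀ x ∈ C, t x = x) (hCc : ∀ x ∈ C, ∀ y ∈ C, x * y = y * x) (hC2 : IsPGroup 2 C)
    (h9 : 2 ^ 9 ≤ Nat.card C ^ 2) : False := by
  have h2 : Fact (Nat.Prime 2) := ⟨Nat.prime_two⟩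
  let H : Subgroup X :=
    { carrier := {x | t x = x}
      one_mem' := map_one t
      mul_mem' := fun {a b} ha hb => by
        show t (a * b) = a * b
        rw [map_mul, show t a = a from ha, show t b = b from hb]
      inv_mem' := fun {a} ha => by
        show t a⁻¹ = a⁻¹
        rw [map_inv, show t a = a from ha] }
  have mH : ∀ {x : X}, x ∈ H ↔ t x = x := Iff.rfl
  -- the action on `L`
  let cj : ↥H →* MulAut ↥L :=
    { toFun := fun u =>
        { toFun := fun l => ⟨(u : X) * l * (u : X)⁻¹, norm u u.2 l l.2⟩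
          invFun := fun l => ⟨(u : X)⁻¹ * l * ((u : X)⁻¹)⁻¹, norm (u : X)⁻¹ (u⁻¹).2 l l.2⟩
          left_inv := fun l => Subtype.ext (by
            show (u : X)⁻¹ * ((u : X) * l * (u : X)⁻¹) * ((u : X)⁻¹)⁻¹ = l
            group)
          right_inv := fun l => Subtype.ext (by
            show (u : X) * ((u : X)⁻¹ * l * ((u : X)⁻¹)⁻¹) * (u : X)⁻¹ = l
            group)
          map_mul' := fun l k => Subtype.ext (by
            show (u : X) * ((l : X) * k) * (u : X)⁻¹ = (u : X) * l * (u : X)⁻¹ * ((u : X) * k * (u : X)⁻¹)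
            group) }
      map_one' := by
        ext l
        show (1 : X) * l * (1 : X)⁻¹ = l
        group
      map_mul' := fun u w => by
        ext l
        show ((u : X) * (w : X)) * l * ((u : X) * (w : X))⁻¹ = (u : X) * ((w : X) * l * (w : X)⁻¹) * (u : X)⁻¹
        group }
  have hker : ¬ 2 ∣ Nat.card cj.ker := by
    intro hd
    obtain ⟨x, hx⟩ := exists_prime_orderOf_dvd_card' 2 hd
    have h3 : ∀ l ∈ L, ((x : ↥H) : X) * l = l * (x : ↥H) := by
      intro l hl
      have h4 : cj (x : ↥H) = 1 := x.2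
      have h5 := congrArg Subtype.val (DFunLike.congr_fun h4 ⟨l, hl⟩)
      exact mul_inv_eq_iff_eq_mul.1 h5
    have h6 : orderOf (((x : ↥H) : X)) = 2 := by rw [Subgroup.orderOf_coe, Subgroup.orderOf_coe, hx]
    have h7 := inv _ (x : ↥H).2 (by rw [← pow_two, ← h6, pow_orderOf_eq_one]) h3
    rw [h7, orderOf_one] at h6
    norm_num at h6
  have hLQ : Nat.card (MulAut ↥L) ∣ Nat.card (MulAut B) := by
    refine (card_mulAut_dvd hL).trans (dvd_of_eq ?_)
    let e : (↥L ⧸ center ↥L) ≃* B :=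
      (QuotientGroup.quotientMulEquivOfEq hk.symm).trans (QuotientGroup.quotientKerEquivOfSurjective f hf)
    exact Nat.card_congr (MulAut.congr e).toEquiv
  have hH : ¬ 2 ^ 6 ∣ Nat.card H := by
    intro hd
    have h3 : Nat.card H = Nat.card cj.ker * Nat.card cj.range := by
      rw [← Subgroup.index_ker, Subgroup.card_mul_index]
    rw [h3] at hd
    have h4 : Nat.Coprime (2 ^ 6) (Nat.card cj.ker) :=
      Nat.Coprime.pow_left 6 ((Nat.Prime.coprime_iff_not_dvd Nat.prime_two).2 hker)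
    exact hB ((h4.dvd_of_dvd_mul_left hd).trans ((card_subgroup_dvd_card cj.range).trans hLQ))
  -- `C` is a Sylow 2-subgroup of `H`
  obtain ⟨k, hk2⟩ := IsPGroup.iff_card.1 hC2
  have hk5 : 5 ≤ k := by
    by_contra hlt
    rw [hk2, ← pow_mul] at h9
    have h3 : k * 2 ≤ 8 := by omega
    have h4 : 2 ^ (k * 2) ≤ 2 ^ 8 := Nat.pow_le_pow_right (by norm_num) h3
    omega
  have hCH : C ≤ H := fun x hx => hC x hx
  have hC' : Nat.card (C.subgroupOf H) = 2 ^ k := by
    rw [← hk2]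
    exact Nat.card_congr (subgroupOfEquivOfLe hCH).toEquiv
  have hfac : (Nat.card H).factorization 2 = k := by
    have h3 : 2 ^ k ∣ Nat.card H := by rw [← hC']; exact card_subgroup_dvd_card _
    have h4 := (h2.out.pow_dvd_iff_le_factorization Nat.card_pos.ne').1 h3
    have h5 : ¬ 6 ≤ (Nat.card H).factorization 2 := fun h =>
      hH ((h2.out.pow_dvd_iff_le_factorization Nat.card_pos.ne').2 h)
    omega
  let R : Sylow 2 H := Sylow.ofCard (C.subgroupOf H) (by rw [hC', hfac])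
  -- the 2-subgroups of `H` are commutative
  have key : ∀ Q : Subgroup H, IsPGroup 2 Q → ∀ x ∈ Q, ∀ y ∈ Q, x * y = y * x := by
    intro Q hQ x hx y hy
    obtain ⟨Q', hQ'⟩ := hQ.exists_le_sylow
    obtain ⟨g, hg⟩ := MulAction.exists_smul_eq H R Q'
    have hm : ∀ z ∈ Q, ∃ c ∈ C.subgroupOf H, z = g * c * g⁻¹ := by
      intro z hz
      have h3 : z ∈ Q' := hQ' hz
      rw [← hg] at h3
      obtain ⟨c, hc, rfl⟩ := h3
      exact ⟨c, hc, rfl⟩
    obtain ⟨c, hc, rfl⟩ := hm x hx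
    obtain ⟨d, hd, rfl⟩ := hm y hy
    have h3 : c * d = d * c := Subtype.ext (hCc _ (mem_subgroupOf.1 hc) _ (mem_subgroupOf.1 hd))
    calc g * c * g⁻¹ * (g * d * g⁻¹) = g * (c * d) * g⁻¹ := by group
      _ = g * (d * c) * g⁻¹ := by rw [h3]
      _ = g * d * g⁻¹ * (g * c * g⁻¹) := by group
  have hLH : L ≤ H := fun l hl => fix l hl
  obtain ⟨Q⟩ : Nonempty (Sylow 2 ↥L) := inferInstance
  have hQc : ∀ x ∈ (Q : Subgroup ↥L), ∀ y ∈ (Q : Subgroup ↥L), x * y = y * x := by
    intro x hx y hy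
    have h3 := key ((Q : Subgroup ↥L).map (inclusion hLH)) (Q.2.map _) _ (mem_map_of_mem _ hx) _ (mem_map_of_mem _ hy)
    rw [← map_mul, ← map_mul] at h3
    exact inclusion_injective hLH h3
  refine h8 (Q.mapSurjective hf) ⟨⟨?_⟩⟩
  rintro ⟨_, x, hx, rfl⟩ ⟨_, y, hy, rfl⟩
  apply Subtype.ext
  show f x * f y = f y * f x
  rw [← map_mul, ← map_mul, hQc x hx y hy]

/-! ### `L₃(3)` -/

theorem not_comm_quasi {S : Type u} [Group S] (h : Cfsg.IsQuasiDihedral S) : ¬ IsMulCommutative S := by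
  intro hc
  obtain ⟨n, hn, -, x, y, hx, hy, h1⟩ := h
  have h2 : y * x = x * y := hc.is_comm.comm y x
  rw [h2, mul_inv_cancel_right] at h1
  have h3 : 2 ≤ 2 ^ (n - 1) - 1 := by
    have h4 : 2 ^ 2 ≤ 2 ^ (n - 1) := Nat.pow_le_pow_right (by norm_num) (by omega)
    omega
  have h5 : x ^ (2 ^ (n - 1) - 1 - 1) = 1 := by
    have h6 : x ^ (2 ^ (n - 1) - 1 - 1) * x = 1 * x := by
      rw [← pow_succ, one_mul, Nat.sub_add_cancel (by omega)]
      exact h1.symm
    exact mul_right_cancel h6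
  have h6 := Nat.le_of_dvd (by omega) (orderOf_dvd_of_pow_eq_one h5)
  rw [hx] at h6
  have h7 : 2 ^ (n - 1) < 2 ^ n := Nat.pow_lt_pow_right (by norm_num) (by omega)
  omega

theorem not_comm_wreathed {S : Type u} [Group S] (h : Cfsg.IsWreathed S) : ¬ IsMulCommutative S := by
  intro hc
  obtain ⟨n, hn, -, x, y, z, hx, -, h0, -, h1⟩ := h
  have h2 : z * x = x * z := hc.is_comm.comm z x
  rw [h2, mul_inv_cancel_right] at h1
  rw [← h1, inf_idem, zpowers_eq_bot] at h0
  rw [h0, orderOf_one] at hx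
  have : 1 < 2 ^ n := Nat.one_lt_two_pow (by omega)
  omega

section l33

variable {F : Type*} [Field F] [Fintype F]

theorem l33_aut (hF : Fintype.card F = 3) :
    ¬ 2 ^ 6 ∣ Nat.card (MulAut (Matrix.ProjectiveSpecialLinearGroup (Fin 3) F)) := by
  have h3 : Fact (Nat.Prime 3) := ⟨Nat.prime_three⟩
  have h := S0813.result (F := F) 3 1 le_rfl (by rw [hF]; norm_num) 3 (by norm_num) (by norm_num)
  rw [h]
  have hG : Nat.card (GL (Fin 3) F) = 11232 := by
    rw [Matrix.card_GL_field, hF]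
    decide
  have h4 := ClassicalGeometry.PSL2Basic.card_PGL_mul (n := Fin 3) (F := F)
  rw [hG, hF] at h4
  have h5 : Nat.card (Matrix.ProjGenLinGroup (Fin 3) F) = 5616 := by omega
  rw [h5, if_neg (by norm_num)]
  norm_num

theorem l33_sylow (hF : Fintype.card F = 3) (P : Sylow 2 (Matrix.ProjectiveSpecialLinearGroup (Fin 3) F)) :
    ¬ IsMulCommutative (P : Subgroup (Matrix.ProjectiveSpecialLinearGroup (Fin 3) F)) := by
  intro hc
  by_cases h2 : 2 ∣ Nat.card (Matrix.ProjectiveSpecialLinearGroup (Fin 3) F)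
  · rcases GH.Cov.SylowThree.psl_three (by rw [hF]; decide) (MulEquiv.refl _) h2 P with h | h
    · exact not_comm_quasi h hc
    · exact not_comm_wreathed h hc
  · exact h2 (by rw [H26.SolvPPrime.card_psl_three hF]; norm_num)

/-- **The row `Fi₂₂`.** -/
theorem fi22 {X : Type u} [Group X] [Finite X] (h : Spor.IsoFi22 X) {A : Type v} [Group A] (hF : Fintype.card F = 3)
    (e : (A ⧸ center A) ≃* Matrix.ProjectiveSpecialLinearGroup (Fin 3) F) {t : MulAut X} (htt : t * t = 1)
    {L : Subgroup X} (fix : ∀ l ∈ L, t l = l) (norm : ∀ x : X, t x = x → ∀ l ∈ L, x * l * x⁻¹ ∈ L)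
    (inv : ∀ x : X, t x = x → x * x = 1 → (∀ l ∈ L, x * l = l * x) → x = 1)
    (hL : commutator ↥L = ⊤) (a : ↥L ≃* A) : False := by
  obtain ⟨C, h1, h2, h3, h4⟩ := exists_comm_fi22 h htt
  let f : ↥L →* Matrix.ProjectiveSpecialLinearGroup (Fin 3) F :=
    e.toMonoidHom.comp ((QuotientGroup.mk' (center A)).comp a.toMonoidHom)
  have hf : Function.Surjective f := e.surjective.comp ((QuotientGroup.mk'_surjective _).comp a.surjective)
  refine no_comm fix norm inv hL f hf ?_ (l33_aut hF) (l33_sylow hF) h1 h2 h3 h4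
  ext x
  rw [MonoidHom.mem_ker, mem_center_iff]
  show e (QuotientGroup.mk' (center A) (a x)) = 1 ↔ _
  rw [map_eq_one_iff e e.injective, QuotientGroup.mk'_apply, QuotientGroup.eq_one_iff, mem_center_iff]
  constructor
  · intro h y
    apply a.injective
    rw [map_mul, map_mul]
    exact h (a y)
  · intro h y
    obtain ⟨y, rfl⟩ := a.surjective y
    rw [← map_mul, ← map_mul, h y]

end l33

end Cfsg.Agent.H995.FiStd
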